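import Cfsg.Agent.OD.Pre
import Cfsg.Agent.H6.Top2
import Cfsg.Agent.H6.G25A.C
set_option autoImplicit false
set_option maxRecDepth 100000
set_option Elab.async false
set_option linter.all false
namespace CfH6.G25A
open CfH6 MulAction
theorem e0_0 : EqsOk nets0 eqs0 4096 12 0 12 :=
  eqsOk_of _ _ _ _ 0 12 _ (by decide) (by decide +kernel)
theorem ok0 : okNets 4096 nets0 = true := by decide +kernel
theorem x1_0 : NxOk nets0 ws1 nets1 3 4096 12 4096 0 12 :=
  nxOk_of _ _ _ _ _ _ _ 0 12 _ (by decide) (by decide +kernel)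
theorem sx1 : sideNx ws1 nets1 9 4096 12 4096 = true := by decide +kernel
theorem x2_0 : NxOk nets1 ws2 nets2 2 4096 12 32 0 12 :=
  nxOk_of _ _ _ _ _ _ _ 0 12 _ (by decide) (by decide +kernel)
theorem sx2 : sideNx ws2 nets2 3 4096 12 32 = true := by decide +kernel
theorem x3_0 : NxOk nets2 ws3 nets3 2 32 5 24 0 5 :=
  nxOk_of _ _ _ _ _ _ _ 0 5 _ (by decide) (by decide +kernel)
theorem sx3 : sideNx ws3 nets3 2 32 5 24 = true := by decide +kernel
theorem oi1_0 : (Nat.blt 0 3 && Nat.beq (orbN nets1 3 18 (Nat.shiftLeft 1 1)) S1) = true := by decide +kernel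
theorem ci1 : (Nat.beq (chkInv nets1 3 S1) 0 && S1.testBit 1) = true := by decide +kernel
theorem oi2_0 : (Nat.blt 0 3 && Nat.beq (orbN nets1 3 12 (Nat.shiftLeft 1 3156)) S2) = true := by decide +kernel
theorem ci2 : (Nat.beq (chkInv nets1 3 S2) 0 && S2.testBit 3156) = true := by decide +kernel
theorem oi3_0 : (Nat.blt 0 3 && Nat.beq (orbN nets1 3 15 (Nat.shiftLeft 1 3162)) S3) = true := by decide +kernel
theorem ci3 : (Nat.beq (chkInv nets1 3 S3) 0 && S3.testBit 3162) = true := by decide +kernel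
theorem cm3 : chkMx 4096 nets0 9 ws1 3 3906 w3 3162 J3 lBig = true := by decide +kernel
theorem cm2 : chkMx 4096 nets0 9 ws1 3 3906 w2 3156 J2 lBig = true := by decide +kernel
theorem cm1 : chkMx 4096 nets0 9 ws1 3 3906 w1 1 J1 lBig = true := by decide +kernel
theorem og3 : Nat.ble 20 (popc 5 (orbN nets3 2 6 (Nat.shiftLeft 1 3))) = true := by decide +kernel
theorem og2 : Nat.ble 24 (popc 5 (orbN nets2 2 10 (Nat.shiftLeft 1 2))) = true := by decide +kernel
theorem pw0 : (allLt 9 (wpow [1, 8] (31 ^ 1)) && bs'.all fun b => Nat.blt b 4096 && Nat.beq (chkMap nets0 (wpow [1, 8] (31 ^ 1)) b b) 0) = true := by decide +kernel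
end CfH6.G25A
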